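import Cfsg.Agent.H893.EP.GeoL

/-!
# S3499, row Om-C3, extension fields of prime degree at least five: the main argument (helper893)
-/

set_option autoImplicit false
set_option linter.unusedSectionVars false

namespace Cfsg.Agent.H893.EP

open QuadraticMap Module
open Cfsg.Agent.LieClassical.OrthCore Cfsg.Agent.LieClassical.OrthTrans Cfsg.Agent.LieClassical.OrthFinite

variable {F L V : Type*} [Field F] [Finite F] [Field L] [Algebra F L] [FiniteDimensional F L]
  [AddCommGroup V] [Module F V] [Module L V] [IsScalarTower F L V] [FiniteDimensional F V]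
  {Q : QuadraticForm F V}

/-- the element `x` -/
theorem exists_x (hQ : Nondeg Q) (hr : (finrank F L).Prime) (h5 : 5 ≤ finrank F L)
    (hn : finrank F V = finrank F L ∨ finrank F V = 2 * finrank F L) (h7 : 7 ≤ finrank F V)
    (hsa : ∀ (k : L) (v w : V), polar Q (k • v) w = polar Q v (k • w)) :
    ∃ x ∈ E Q, (∀ τ : L ≃ₐ[F] L, ¬ SL x τ) ∧ ∀ (a : V ≃ₗ[F] V) (τ τ' : L ≃ₐ[F] L), a ∈ E Q → SL a τ →
      SL (x⁻¹ * a * x) τ' → ∃ c : F, ∀ v, a v = c • v := by
  have hG : Good Q := good_of_finite hQ (by omega)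
  -- a nonsingular vector
  obtain ⟨e, he⟩ : ∃ e, Q e ≠ 0 := by
    by_contra hcon
    push Not at hcon
    obtain ⟨x, y, hxy⟩ := hG.exists_hyp
    have h1 := hxy.pair
    rw [polar, hcon, hcon, hcon, sub_zero, sub_zero] at h1
    exact zero_ne_one h1
  have he0 : e ≠ 0 := by
    rintro rfl
    exact he (QuadraticMap.map_zero Q)
  set q := qe L Q e with hq
  have hqa : ∀ k : L, q k = Q (k • e) := fun k => rfl
  have hφ := qe_polar (L := L) hsa e
  have hq1 : q 1 ≠ 0 := by rw [hqa, one_smul]; exact he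
  obtain ⟨w1, w2, hw1, hw2, hind, hbad⟩ := exists_w hφ hr h5 hq1
  have hinj := mvv_inj (F := F) (L := L) he0
  set u1 := w1 • e with hu1
  set u2 := w2 • e with hu2
  have hQ1 : Q u1 ≠ 0 := hw1
  have hQ2 : Q u2 ≠ 0 := by
    have : Q u2 = Q u1 := hw2
    rw [this]; exact hQ1
  have hQ21 : Q u2 = Q u1 := hw2
  have hu12 : ∀ c : F, u2 ≠ c • u1 := by
    intro c hc
    apply hind c
    apply hinj
    rw [mvv_apply, mvv_apply, smul_assoc]
    exact hc
  have hu10 : u1 ≠ 0 := by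
    intro h
    rw [h] at hQ1
    exact hQ1 (QuadraticMap.map_zero Q)
  have hu20 : u2 ≠ 0 := by
    intro h
    rw [h] at hQ2
    exact hQ2 (QuadraticMap.map_zero Q)
  set x : V ≃ₗ[F] V := refl Q u1 hQ1 * refl Q u2 hQ2 with hx
  have hxE : x ∈ E Q := hG.refl_mul_refl_mem hQ2 hQ1 hQ21
  set W : Submodule F V := Submodule.span F {u1, u2} with hW
  have hu1W : u1 ∈ W := Submodule.subset_span (by simp)
  have hu2W : u2 ∈ W := Submodule.subset_span (by simp)
  have hxap : ∀ v, x v = refl Q u1 hQ1 (refl Q u2 hQ2 v) := fun v => rfl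
  have hxW : ∀ v, x v - v ∈ W := by
    intro v
    rw [hxap, refl_apply, refl_apply]
    have e1 : v - ((Q u2)⁻¹ * polar Q u2 v) • u2 -
        ((Q u1)⁻¹ * polar Q u1 (v - ((Q u2)⁻¹ * polar Q u2 v) • u2)) • u1 - v =
        - (((Q u2)⁻¹ * polar Q u2 v) • u2) -
        ((Q u1)⁻¹ * polar Q u1 (v - ((Q u2)⁻¹ * polar Q u2 v) • u2)) • u1 := by abel
    rw [e1]
    exact W.sub_mem (W.neg_mem (W.smul_mem _ hu2W)) (W.smul_mem _ hu1W)
  have hWdim : finrank F W ≤ 2 := by
    classical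
    have h := finrank_span_finset_le_card (R := F) ({u1, u2} : Finset V)
    rw [Finset.coe_pair] at h
    exact h.trans Finset.card_le_two
  -- preimages
  obtain ⟨v1, hv1, hv1'⟩ : ∃ v1, polar Q u2 v1 = 0 ∧ polar Q u1 v1 = - Q u1 := by
    obtain ⟨y, hy1, hy2⟩ : ∃ y, polar Q u2 y = 0 ∧ polar Q u1 y ≠ 0 := by
      by_contra hcon
      push Not at hcon
      -- `u1` is a multiple of `u2`
      obtain ⟨z, hz⟩ := hQ.exists_polar_eq hu20 1
      have h1 : u1 - polar Q u1 z • u2 = 0 := by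
        apply hQ
        intro y
        have h2 := hcon (y - polar Q u2 y • z) (by
          rw [polar_sub_right, polar_smul_right, hz, smul_eq_mul, mul_one, sub_self])
        rw [polar_sub_right, polar_smul_right, smul_eq_mul, sub_eq_zero] at h2
        rw [polar_sub_left, polar_smul_left, h2, smul_eq_mul, mul_comm, sub_self]
      rw [sub_eq_zero] at h1
      obtain ⟨t, ht⟩ : ∃ t : F, u1 = t • u2 := ⟨_, h1⟩
      by_cases h0 : t = 0
      · rw [h0, zero_smul] at ht
        exact hu10 ht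
      · apply hu12 t⁻¹
        rw [ht, smul_smul, inv_mul_cancel₀ h0, one_smul]
    refine ⟨(- Q u1 * (polar Q u1 y)⁻¹) • y, ?_, ?_⟩
    · rw [polar_smul_right, hy1, smul_zero]
    · rw [polar_smul_right, smul_eq_mul, mul_assoc, inv_mul_cancel₀ hy2, mul_one]
  have hx1 : x v1 - v1 = u1 := by
    rw [hxap, refl_apply hQ2, hv1, mul_zero, zero_smul, sub_zero, refl_apply hQ1, hv1', mul_neg, inv_mul_cancel₀ hQ1,
      neg_smul, one_smul]
    abel
  obtain ⟨v2, hv2⟩ := hQ.exists_polar_eq hu20 (- Q u2)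
  obtain ⟨s, hx2⟩ : ∃ s : F, x v2 - v2 = u2 - s • u1 := by
    refine ⟨(Q u1)⁻¹ * polar Q u1 (v2 + u2), ?_⟩
    have h1 : refl Q u2 hQ2 v2 = v2 + u2 := by
      rw [refl_apply, hv2, mul_neg, inv_mul_cancel₀ hQ2, neg_smul, one_smul]
      abel
    rw [hxap, h1, refl_apply hQ1]
    abel
  refine ⟨x, hxE, ?_, ?_⟩
  · intro τ hτ
    have h1 := eq_one_of_rank hr h5 hn h7 hτ (D := W) (by omega) hxW v1
    rw [← hx1, h1, sub_self] at hu10
    exact hu10 rfl
  intro a τ τ' haE ha hb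
  -- `a` commutes with `x`
  have hcomm : ∀ v, a (x v) = x (a v) := by
    let g : V ≃ₗ[F] V := a⁻¹ * (x⁻¹ * a * x)
    have hainv : SL a⁻¹ τ⁻¹ := by
      intro k v
      apply a.injective
      rw [ha]
      change a (a.symm (k • v)) = τ (τ.symm k) • a (a.symm v)
      rw [LinearEquiv.apply_symm_apply, LinearEquiv.apply_symm_apply, AlgEquiv.apply_symm_apply]
    have hg : SL g (τ⁻¹ * τ') := by
      intro k v
      change a⁻¹ ((x⁻¹ * a * x) (k • v)) = _
      rw [hb, hainv]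
      rfl
    have hgD : ∀ v, g v - v ∈ W ⊔ W.map (a⁻¹ : V ≃ₗ[F] V).toLinearMap := by
      intro v
      set y := a (x v) with hy
      have e1 : g v = a⁻¹ (x⁻¹ y) := rfl
      have e2 : a⁻¹ y = x v := by
        change a.symm (a (x v)) = _
        rw [LinearEquiv.symm_apply_apply]
      have e3 : g v - v = a⁻¹ (x⁻¹ y - y) + (x v - v) := by
        rw [map_sub, e1, e2]
        abel
      rw [e3]
      refine Submodule.add_mem _ (Submodule.mem_sup_right ⟨x⁻¹ y - y, ?_, rfl⟩) (Submodule.mem_sup_left (hxW v))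
      have h1 := hxW (x⁻¹ y)
      have h2 : x (x⁻¹ y) = y := x.apply_symm_apply y
      rw [h2] at h1
      have h3 := W.neg_mem h1
      rwa [neg_sub] at h3
    have h1 := Submodule.finrank_add_le_finrank_add_finrank W (W.map (a⁻¹ : V ≃ₗ[F] V).toLinearMap)
    have h2 := Submodule.finrank_map_le (a⁻¹ : V ≃ₗ[F] V).toLinearMap W
    have h3 := eq_one_of_rank hr h5 hn h7 hg (by omega) hgD
    intro v
    have h4 := h3 v
    change a.symm (x.symm (a (x v))) = v at h4
    rw [LinearEquiv.symm_apply_eq, LinearEquiv.symm_apply_eq] at h4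
    exact h4
  have hau1 : a u1 ∈ W := by
    rw [← hx1, map_sub, hcomm]
    exact hxW _
  have hau2 : a u2 ∈ W := by
    have h1 : a (u2 - s • u1) ∈ W := by
      rw [← hx2, map_sub, hcomm]
      exact hxW _
    rw [map_sub, LinearEquiv.map_smul a s u1] at h1
    have := W.add_mem h1 (W.smul_mem s hau1)
    rwa [sub_add_cancel] at this
  -- elements of `W`
  have hWe : ∀ v ∈ W, ∃ k ∈ Submodule.span F {w1, w2}, v = k • e := by
    intro v hv
    obtain ⟨c, d, rfl⟩ := Submodule.mem_span_pair.1 hv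
    refine ⟨c • w1 + d • w2, Submodule.mem_span_pair.2 ⟨c, d, rfl⟩, ?_⟩
    rw [add_smul, smul_assoc, smul_assoc]
  have hw10 : w1 ≠ 0 := by
    rintro rfl
    exact hw1 (QuadraticMap.map_zero _)
  have hτw1 : τ w1 ≠ 0 := fun h => hw10 (by
    have := congrArg τ.symm h
    rwa [AlgEquiv.symm_apply_apply, map_zero] at this)
  obtain ⟨ρ, hρ⟩ : ∃ ρ : L, a e = ρ • e := by
    obtain ⟨k, -, hk⟩ := hWe _ hau1
    rw [hu1, ha] at hk
    refine ⟨(τ w1)⁻¹ * k, ?_⟩
    rw [mul_smul, ← hk, smul_smul, inv_mul_cancel₀ hτw1, one_smul]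
  let T : L →ₗ[F] L :=
    { toFun := fun k => τ k * ρ
      map_add' := fun k l => by rw [map_add, add_mul]
      map_smul' := fun c k => by rw [map_smul, smul_mul_assoc]; rfl }
  have hT : ∀ k, T k = τ k * ρ := fun _ => rfl
  have haT : ∀ k : L, a (k • e) = T k • e := by
    intro k
    rw [ha, hρ, smul_smul, hT]
  have hqT : ∀ k, q (T k) = q k := by
    intro k
    rw [hqa, hqa, ← haT]
    exact E_le_O haE _
  have hTin : ∀ k : L, a (k • e) ∈ W → T k ∈ Submodule.span F {w1, w2} := by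
    intro k hk
    obtain ⟨l, hl, hl'⟩ := hWe _ hk
    rw [haT] at hl'
    have : T k = l := hinj hl'
    rw [this]
    exact hl
  have hτ1 : τ = 1 := by
    by_contra hτ
    exact hbad T τ ρ hτ hT hqT ⟨hTin w1 hau1, hTin w2 hau2⟩
  subst hτ1
  have hρ1 : ρ = 1 ∨ ρ = -1 := pm_one hφ hq1 fun l => hqT l
  obtain ⟨c, hc, hce⟩ : ∃ c : F, (c = 1 ∨ c = -1) ∧ a e = c • e := by
    rcases hρ1 with h | h
    · exact ⟨1, Or.inl rfl, by rw [hρ, h, one_smul, one_smul]⟩
    · exact ⟨-1, Or.inr rfl, by rw [hρ, h, neg_smul, neg_smul, one_smul, one_smul]⟩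
  refine ⟨c, ?_⟩
  rcases hn with hn | hn
  · have hs : Function.Surjective (mvv F e : L →ₗ[F] V) :=
      (LinearMap.injective_iff_surjective_of_finrank_eq_finrank hn.symm).1 hinj
    intro v
    obtain ⟨k, rfl⟩ := hs v
    rw [mvv_apply, ha, hce, smul_algebra_smul_comm]
    rfl
  · exact parity hG hr h5 hn hsa he haE (fun k v => ha k v) hc hce

end Cfsg.Agent.H893.EP
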