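import Cfsg.Agent.H778.EP.OmAsm
import Cfsg.Agent.H907.FieldSub
import Cfsg.Agent.H893.EP.MainL

/-!
# S3499, row Om-C3, degree at least five, dimension one or two over the extension field (helper893)
-/

set_option autoImplicit false
set_option linter.unusedSectionVars false

namespace Cfsg.Agent.H893.EP

open QuadraticMap Module Matrix
open Cfsg.Agent.H284 Cfsg.Agent.H419.EP Cfsg.Agent.H925 Cfsg.Agent.H907
open Cfsg.Agent.LieClassical.OrthCore Cfsg.Agent.LieClassical.OrthTrans Cfsg.Agent.LieClassical.OrthFinite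
open scoped MatrixGroups

section conj

variable {F : Type} [Field F] {ι : Type} [Fintype ι] [DecidableEq ι] {K : Subalgebra F (Matrix ι ι F)}

/-- the automorphism of `K` induced by an element of the normaliser -/
def conjK {g : GL ι F} (hg : g ∈ Geo.subalgebraNormalizer K) : K ≃ₐ[F] K where
  toFun k := ⟨(g : Matrix ι ι F) * k * ((g⁻¹ : GL ι F) : Matrix ι ι F), (hg k).1 k.2⟩
  invFun k := ⟨((g⁻¹ : GL ι F) : Matrix ι ι F) * k * (g : Matrix ι ι F), by
    have h1 := ((Geo.subalgebraNormalizer K).inv_mem hg (k : Matrix ι ι F)).1 k.2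
    rwa [inv_inv] at h1⟩
  left_inv k := Subtype.ext (by
    show ((g⁻¹ : GL ι F) : Matrix ι ι F) * ((g : Matrix ι ι F) * k * ((g⁻¹ : GL ι F) : Matrix ι ι F)) * (g : Matrix ι ι F) = k
    calc _ = (((g⁻¹ : GL ι F) : Matrix ι ι F) * (g : Matrix ι ι F)) * k *
          (((g⁻¹ : GL ι F) : Matrix ι ι F) * (g : Matrix ι ι F)) := by simp only [mul_assoc]
      _ = _ := by rw [Units.inv_mul, one_mul, mul_one])
  right_inv k := Subtype.ext (by
    show (g : Matrix ι ι F) * (((g⁻¹ : GL ι F) : Matrix ι ι F) * k * (g : Matrix ι ι F)) * ((g⁻¹ : GL ι F) : Matrix ι ι F) = k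
    calc _ = ((g : Matrix ι ι F) * ((g⁻¹ : GL ι F) : Matrix ι ι F)) * k *
          ((g : Matrix ι ι F) * ((g⁻¹ : GL ι F) : Matrix ι ι F)) := by simp only [mul_assoc]
      _ = _ := by rw [Units.mul_inv, one_mul, mul_one])
  map_mul' a b := Subtype.ext (by
    show (g : Matrix ι ι F) * ((a : Matrix ι ι F) * b) * ((g⁻¹ : GL ι F) : Matrix ι ι F) =
      (g : Matrix ι ι F) * a * ((g⁻¹ : GL ι F) : Matrix ι ι F) * ((g : Matrix ι ι F) * b * ((g⁻¹ : GL ι F) : Matrix ι ι F))
    calc _ = (g : Matrix ι ι F) * a * 1 * b * ((g⁻¹ : GL ι F) : Matrix ι ι F) := by simp only [mul_assoc, mul_one]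
      _ = (g : Matrix ι ι F) * a * (((g⁻¹ : GL ι F) : Matrix ι ι F) * (g : Matrix ι ι F)) * b *
          ((g⁻¹ : GL ι F) : Matrix ι ι F) := by rw [Units.inv_mul]
      _ = _ := by simp only [mul_assoc])
  map_add' a b := Subtype.ext (by
    show (g : Matrix ι ι F) * ((a : Matrix ι ι F) + b) * ((g⁻¹ : GL ι F) : Matrix ι ι F) = _
    rw [mul_add, add_mul]
    rfl)
  commutes' c := Subtype.ext (by
    show (g : Matrix ι ι F) * (algebraMap F (Matrix ι ι F) c) * ((g⁻¹ : GL ι F) : Matrix ι ι F) =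
      algebraMap F (Matrix ι ι F) c
    rw [← Algebra.commutes, mul_assoc, Units.mul_inv, mul_one])

theorem conjK_apply {g : GL ι F} (hg : g ∈ Geo.subalgebraNormalizer K) (k : K) :
    ((conjK hg k : K) : Matrix ι ι F) = (g : Matrix ι ι F) * k * ((g⁻¹ : GL ι F) : Matrix ι ι F) := rfl

/-- the `K`-module `F^ι` -/
@[reducible]
def modK (K : Subalgebra F (Matrix ι ι F)) : Module K (ι → F) where
  smul k v := (k : Matrix ι ι F) *ᵥ v
  one_smul v := Matrix.one_mulVec v
  mul_smul a b v := (Matrix.mulVec_mulVec v (a : Matrix ι ι F) b).symm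
  smul_zero _ := Matrix.mulVec_zero _
  smul_add _ v w := Matrix.mulVec_add _ v w
  add_smul _ _ v := Matrix.add_mulVec _ _ v
  zero_smul v := Matrix.zero_mulVec v

end conj

/-- **S3499, Om-C3**, `[K : F] = r ≥ 5` prime, `n = r` or `n = 2 r` -/
theorem omC3S : Cfsg.Agent.H778.EP.OmRow fun F _ _ ι _ _ Qf H => ∃ (r : ℕ) (K : Subalgebra F (Matrix ι ι F)),
    r.Prime ∧ 5 ≤ r ∧ (Fintype.card ι = r ∨ Fintype.card ι = 2 * r) ∧ Geo.IsFieldSubalgebra r K ∧
      Geo.IsSelfAdjointFor (QuadraticMap.polar Qf) K ∧ H ≤ Geo.subalgebraNormalizer K := by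
  intro Q _ _ hs A Γ h F _ _ ι _ _ Qf m h7 hQ ⟨r, K, hr, h5, hn, hK, hsa, hle⟩
  have hne : Nonempty ι := Fintype.card_pos_iff.1 (by omega)
  let fK : Field K := (isField_of hK).toField
  let mK : Module K (ι → F) := modK K
  have hsm : ∀ (k : K) (v : ι → F), k • v = (k : Matrix ι ι F) *ᵥ v := fun _ _ => rfl
  have hst : IsScalarTower F K (ι → F) := ⟨fun c k v => by
    rw [hsm, hsm]
    exact Matrix.smul_mulVec c (k : Matrix ι ι F) v⟩
  have hfr : finrank F K = r := hK.finrank_eq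
  have hfV : finrank F (ι → F) = Fintype.card ι := Module.finrank_fintype_fun_eq_card F
  obtain ⟨x, hxE, hx1, hx2⟩ := exists_x (F := F) (L := K) (V := ι → F) (Q := qf hQ) (nondeg_qf hQ) (by rw [hfr]; exact hr)
    (by rw [hfr]; exact h5) (by rw [hfr, hfV]; exact hn) (by rw [hfV]; exact h7) (fun k v w => hsa k k.2 v w)
  obtain ⟨x', hx'S, hx'v⟩ := exists_omegaGL hQ (by omega) hxE
  -- elements of the normaliser are semilinear
  have hSL : ∀ (g : GL ι F) (hg : g ∈ Geo.subalgebraNormalizer K), SL (L := K) (glEquiv ι F g) (conjK hg) := by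
    intro g hg k v
    rw [glEquiv_apply, glEquiv_apply, hsm, hsm, conjK_apply, Matrix.mulVec_mulVec, Matrix.mulVec_mulVec, mul_assoc,
      Units.inv_mul, mul_one]
  have hxx : glEquiv ι F x' = x := LinearEquiv.ext hx'v
  have hx'A : x' ∉ m.hat A := by
    intro hc
    have h1 := hSL x' (hle hc)
    rw [hxx] at h1
    exact hx1 _ h1
  obtain ⟨s, hs1, hs2⟩ := exists_nonscalar h m hx'S hx'A
  obtain ⟨hs3, hs4⟩ := Subgroup.mem_inf.1 hs1
  rw [mem_cj] at hs4
  have hsE : glEquiv ι F s ∈ E (qf hQ) := (mem_omegaGL_iff hQ (by omega)).1 (m.hat_le A hs3)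
  have h4 := hSL _ (hle hs4)
  rw [map_mul, map_mul, map_inv, hxx] at h4
  obtain ⟨c, hc⟩ := hx2 (glEquiv ι F s) _ _ hsE (hSL s (hle hs3)) h4
  apply hs2
  have hmat : (s : Matrix ι ι F) = c • (1 : Matrix ι ι F) := by
    apply Matrix.ext_of_mulVec_single
    intro i
    have := hc (Pi.single i 1)
    rw [glEquiv_apply] at this
    rw [this, Matrix.smul_mulVec, Matrix.one_mulVec]
  have hc0 : c ≠ 0 := by
    rintro rfl
    rw [zero_smul] at hmat
    exact s.ne_zero hmat
  exact (Geo.mem_scalars_iff s).2 ⟨Units.mk0 c hc0, hmat⟩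

end Cfsg.Agent.H893.EP
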