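import Cfsg.Agent.H893.EP.TwoR
import Cfsg.Agent.H893.EP.OmC3S
import Cfsg.Agent.H571.EP.Kill
import Cfsg.Agent.H458.EP.Norm

/-!
# S3499, row Om-C3, degree two, `K` self-adjoint, `|F| ≥ 3` (helper893)

`x = 1 + N` the long root element of the totally singular `K`-line `⟨s⟩`, `N` is antilinear, `Â ∩ Â^x = C_Â(N)`;
`g ∈ Â` with `g N g⁻¹ = c N`, `c ≠ 1`.
-/

set_option autoImplicit false
set_option linter.unusedSectionVars false

namespace Cfsg.Agent.H893.EP

open QuadraticMap Module
open Cfsg.Agent.LieClassical.OrthCore Cfsg.Agent.LieClassical.OrthTrans Cfsg.Agent.LieClassical.OrthFinite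
open scoped commutatorElement

section gen

variable {F L : Type*} [Field F] [Finite F] [Field L] [Algebra F L] [FiniteDimensional F L]

open Cfsg.Agent.H457.RC in
theorem exists_gen (h2 : finrank F L = 2) : ∃ (κ : L) (s t : F), Gen F L κ s t := by
  obtain ⟨κ, hκ⟩ : ∃ κ : L, ∀ c : F, κ ≠ algebraMap F L c := by
    by_contra hcon
    push Not at hcon
    have h3 := finrank_le_one (R := F) (1 : L) fun w => by
      obtain ⟨c, hc⟩ := hcon w
      exact ⟨c, by rw [hc, Algebra.smul_def, mul_one]⟩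
    omega
  have hind : LinearIndependent F ![(1 : L), κ] := by
    rw [LinearIndependent.pair_iff' one_ne_zero]
    intro a ha
    apply hκ a
    rw [← ha, Algebra.smul_def, mul_one]
  have htop : Submodule.span F ({1, κ} : Set L) = ⊤ := by
    apply Submodule.eq_top_of_finrank_eq
    rw [h2]
    have h3 := finrank_span_eq_card hind
    rw [Matrix.range_cons, Matrix.range_cons, Matrix.range_empty, Set.union_empty, Set.singleton_union] at h3
    simpa using h3
  have hgen : ∀ a : L, ∃ x y : F, a = algebraMap F L x + algebraMap F L y * κ := by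
    intro a
    have ha : a ∈ Submodule.span F ({1, κ} : Set L) := by rw [htop]; trivial
    obtain ⟨x, y, h⟩ := Submodule.mem_span_pair.1 ha
    refine ⟨x, y, ?_⟩
    rw [← h, Algebra.smul_def, Algebra.smul_def, mul_one]
  obtain ⟨x, y, hxy⟩ := hgen (κ ^ 2)
  refine ⟨κ, y, -x, ?_, hgen, ?_⟩
  · rw [hxy, map_neg]
    ring
  · intro z hz
    have h3 : (κ - algebraMap F L z) * (κ - algebraMap F L (y - z)) = 0 := by
      have h4 := congrArg (algebraMap F L) hz
      rw [map_add, map_sub, map_mul, map_pow, map_neg, map_zero] at h4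
      rw [map_sub]
      linear_combination hxy - h4
    rcases mul_eq_zero.1 h3 with h | h
    · exact hκ z (sub_eq_zero.1 h)
    · exact hκ (y - z) (sub_eq_zero.1 h)

open Cfsg.Agent.H457.RC in
/-- the nontrivial automorphism -/
theorem exists_conj (h2 : finrank F L = 2) {κ : L} {s t : F} (hκ : Gen F L κ s t) :
    ∃ σ : L ≃ₐ[F] L, σ ≠ 1 ∧ (∀ τ : L ≃ₐ[F] L, τ = 1 ∨ τ = σ) ∧ (∀ k, σ (σ k) = k) ∧
      σ κ = algebraMap F L s - κ ∧ ∀ c : F, c ≠ 0 → ∃ l : L, l ≠ 0 ∧ l * σ l = algebraMap F L c := by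
  classical
  have hfL : Finite L := Module.finite_of_finite F
  have hcard : Nat.card (L ≃ₐ[F] L) = 2 := by rw [IsGalois.card_aut_eq_finrank, h2]
  obtain ⟨σ, hσ, hu⟩ := (Nat.card_eq_two_iff' (1 : L ≃ₐ[F] L)).1 hcard
  have hall : ∀ τ : L ≃ₐ[F] L, τ = 1 ∨ τ = σ := by
    intro τ
    by_cases h : τ = 1
    · exact Or.inl h
    · exact Or.inr (hu τ h)
  have hσσ : σ * σ = 1 := by
    rcases hall (σ * σ) with h | h
    · exact h
    · exact (hσ (mul_eq_left.1 h)).elim
  have hκκ : σ κ ≠ κ := by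
    intro h
    apply hσ
    apply AlgEquiv.ext
    intro a
    obtain ⟨x, y, rfl⟩ := hκ.gen a
    rw [map_add, map_mul, AlgEquiv.commutes, AlgEquiv.commutes, h]
    rfl
  refine ⟨σ, hσ, hall, fun k => DFunLike.congr_fun hσσ k, ?_, ?_⟩
  · have h3 := congrArg σ hκ.sq
    rw [map_pow, map_sub, map_mul, AlgEquiv.commutes, AlgEquiv.commutes] at h3
    have h4 : (σ κ - κ) * (σ κ + κ - algebraMap F L s) = 0 := by
      linear_combination h3 - hκ.sq
    have h5 := (mul_eq_zero.1 h4).resolve_left (sub_ne_zero.2 hκκ)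
    linear_combination h5
  · intro c hc
    obtain ⟨l, hl⟩ := FiniteField.norm_surjective F L c
    have h3 := Algebra.norm_eq_prod_automorphisms F l
    have hft : Fintype (L ≃ₐ[F] L) := Fintype.ofFinite _
    have huniv : (Finset.univ : Finset (L ≃ₐ[F] L)) = {1, σ} := by
      ext τ
      simp only [Finset.mem_univ, Finset.mem_insert, Finset.mem_singleton, true_iff]
      exact hall τ
    refine ⟨l, ?_, ?_⟩
    · rintro rfl
      rw [Algebra.norm_zero] at hl
      exact hc hl.symm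
    · rw [hl] at h3
      rw [h3]
      have h4 : ∏ τ : L ≃ₐ[F] L, τ l = ∏ τ ∈ ({1, σ} : Finset (L ≃ₐ[F] L)), τ l := by
        rw [← huniv]
      rw [Finset.prod_pair (Ne.symm hσ), AlgEquiv.one_apply] at h4
      rw [← h4]
      congr
      exact Subsingleton.elim _ _

end gen

section geo

variable {F L V : Type*} [Field F] [Finite F] [Field L] [Algebra F L] [FiniteDimensional F L]
  [AddCommGroup V] [Module F V] [Module L V] [IsScalarTower F L V] [FiniteDimensional F V]
  {Q : QuadraticForm F V}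

/-- restriction of scalars for automorphisms -/
def resS (F L V : Type*) [Field F] [Field L] [Algebra F L] [AddCommGroup V] [Module F V] [Module L V]
    [IsScalarTower F L V] : (V ≃ₗ[L] V) →* (V ≃ₗ[F] V) where
  toFun g := g.restrictScalars F
  map_one' := rfl
  map_mul' _ _ := rfl

theorem resS_apply (g : V ≃ₗ[L] V) (v : V) : resS F L V g v = g v := rfl

open Cfsg.Agent.H457.RC in
/-- **The data.** -/
theorem exists_ng (hQ : Nondeg Q) (hL : finrank F L = 2) (h7 : 7 ≤ finrank F V) (hF : 3 ≤ Nat.card F)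
    (hsa : ∀ (k : L) (v w : V), polar Q (k • v) w = polar Q v (k • w)) :
    ∃ (N : V →ₗ[F] V) (x g : V ≃ₗ[F] V) (σ : L ≃ₐ[F] L) (c : F), x ∈ E Q ∧ g ∈ E Q ∧ (∀ y, x y = y + N y) ∧
      (∀ y, N (N y) = 0) ∧ (∃ y, N y ≠ 0) ∧ σ ≠ 1 ∧ (∀ τ : L ≃ₐ[F] L, τ = 1 ∨ τ = σ) ∧ (∀ k, σ (σ k) = k) ∧
      (∀ (k : L) y, N (k • y) = σ k • N y) ∧ (∀ (k : L) y, g (k • y) = k • g y) ∧ (∀ y, g (N y) = c • N (g y)) ∧
      c ≠ 1 ∧ c ≠ 0 := by
  have hfL : Finite L := Module.finite_of_finite F
  have hfdL : FiniteDimensional L V := FiniteDimensional.right F L V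
  have hdim : finrank F L * finrank L V = finrank F V := Module.finrank_mul_finrank F L V
  have h4 : 4 ≤ finrank L V := by
    rw [hL] at hdim
    omega
  obtain ⟨κ, tr, nm, hκ⟩ := exists_gen (F := F) (L := L) hL
  obtain ⟨σ, hσ, hall, hσσ, hσκ, hnorm⟩ := exists_conj hL hκ
  obtain ⟨R, l, hR⟩ := exists_KF (Q := Q) hκ (hsa κ)
  have hRn : Nondeg R := hR.nondeg hQ
  obtain ⟨s, hs0, hs, -⟩ := exists_sing_perp (Q := R) (n := 0) Fin.elim0 (by omega)
  obtain ⟨s', hss'⟩ := exists_hyp hRn hs hs0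
  -- the scalar
  obtain ⟨lam, c, hlam0, hc, hc1, gL, hgL, hgs⟩ : ∃ (lam : L) (c : F), lam ≠ 0 ∧ lam * σ lam = algebraMap F L c ∧ c ≠ 1 ∧
      ∃ g ∈ ⁅O R, O R⁆, g s = lam • s := by
    by_cases h3 : Nat.card F = 3
    · have h2 : (2 : L) ≠ 0 := by
        have : Fintype F := Fintype.ofFinite F
        have h5 : ringChar F = 3 := by
          have h6 : (Nat.card F : F) = 0 := by
            rw [Nat.card_eq_fintype_card]
            exact FiniteField.cast_card_eq_zero F
          rw [h3] at h6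
          have h7 : ringChar F ∣ 3 := ringChar.dvd (by exact_mod_cast h6)
          rcases (Nat.dvd_prime Nat.prime_three).1 h7 with h8 | h8
          · exact absurd h8 CharP.ringChar_ne_one
          · exact h8
        intro h
        have h6 : (2 : F) = 0 := by
          apply (algebraMap F L).injective
          rw [map_ofNat, map_zero, h]
        have h7 : ringChar F ∣ 2 := ringChar.dvd (by exact_mod_cast h6)
        rw [h5] at h7
        omega
      have hm1 : (-1 : F) ≠ 1 := by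
        intro h
        apply h2
        have h5 := congrArg (algebraMap F L) h
        rw [map_neg, map_one] at h5
        linear_combination - h5
      obtain ⟨lam, h5, h6⟩ := hnorm (-1) (neg_ne_zero.2 one_ne_zero)
      exact ⟨lam, -1, h5, h6, hm1, comm_all hRn h4 h2 hss' h5⟩
    · -- an element with square different from one
      obtain ⟨c, hc0, hc2⟩ : ∃ c : F, c ≠ 0 ∧ c * c ≠ 1 := by
        classical
        have : Fintype F := Fintype.ofFinite F
        have h5 : ({0, 1, -1} : Finset F).card < (Finset.univ : Finset F).card := by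
          refine lt_of_le_of_lt Finset.card_le_three ?_
          rw [Finset.card_univ, ← Nat.card_eq_fintype_card]
          omega
        obtain ⟨x, -, hx⟩ := Finset.exists_mem_notMem_of_card_lt_card h5
        simp only [Finset.mem_insert, Finset.mem_singleton, not_or] at hx
        refine ⟨x, hx.1, fun h6 => ?_⟩
        rcases mul_self_eq_one_iff.mp h6 with h6 | h6
        · exact hx.2.1 h6
        · exact hx.2.2 h6
      obtain ⟨μ, h5, h6⟩ := hnorm c hc0
      obtain ⟨g, hg, hgs⟩ := comm_sq hss' h5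
      refine ⟨μ * μ, c * c, mul_ne_zero h5 h5, ?_, hc2, g, hg, hgs⟩
      rw [map_mul, map_mul, ← h6]
      ring
  have hc0 : c ≠ 0 := by
    rintro rfl
    rw [map_zero, mul_eq_zero] at hc
    rcases hc with h | h
    · exact hlam0 h
    · apply hlam0
      rw [← hσσ lam, h, map_zero]
  -- the vector `s`
  have hsQ : ∀ k : L, Q (k • s) = 0 := fun k => hR.sing hs k
  have hsp : ∀ k k' : L, polar Q (k • s) (k' • s) = 0 := by
    intro k k'
    rw [polar, ← add_smul, hsQ, hsQ, hsQ]
    ring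
  have hs1 : ∀ k : L, polar Q s (k • s) = 0 := fun k => by
    have := hsp 1 k
    rwa [one_smul] at this
  have hs2 : ∀ k : L, polar Q (k • s) s = 0 := fun k => by
    have := hsp k 1
    rwa [one_smul] at this
  have hss : polar Q s s = 0 := by
    have := hsp 1 1
    rwa [one_smul] at this
  have hsQ0 : Q s = 0 := by
    have := hsQ 1
    rwa [one_smul] at this
  let N : V →ₗ[F] V := (polarBilin Q s).smulRight (κ • s) - (polarBilin Q (κ • s)).smulRight s
  have hN : ∀ y, N y = polar Q s y • (κ • s) - polar Q (κ • s) y • s := fun y => rfl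
  have hκ2 : ∀ v : V, κ • κ • v = tr • κ • v - nm • v := by
    intro v
    rw [smul_smul, ← pow_two, hκ.sq, sub_smul, mul_smul, algebraMap_smul, algebraMap_smul]
  have hσκ' : ∀ v : V, σ κ • v = tr • v - κ • v := by
    intro v
    rw [hσκ, sub_smul, algebraMap_smul]
  have hNκ : ∀ y, N (κ • y) = σ κ • N y := by
    intro y
    have e1 : κ • (polar Q s y • (κ • s) - polar Q (κ • s) y • s) =
        polar Q s y • (tr • κ • s - nm • s) - polar Q (κ • s) y • κ • s := by
      rw [smul_sub, ← smul_comm (polar Q s y) κ (κ • s), ← smul_comm (polar Q (κ • s) y) κ s, hκ2]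
    rw [hN, hN, ← hsa, ← hsa, hσκ', e1, hκ2 s, polar_sub_left, polar_smul_left, polar_smul_left]
    simp only [smul_eq_mul]
    module
  have hNa : ∀ (k : L) y, N (k • y) = σ k • N y := by
    intro k y
    obtain ⟨a, b, rfl⟩ := hκ.gen k
    rw [map_add, map_mul, AlgEquiv.commutes, AlgEquiv.commutes, add_smul, add_smul, mul_smul, mul_smul, map_add,
      algebraMap_smul, algebraMap_smul, algebraMap_smul, algebraMap_smul, map_smul, map_smul, hNκ]
  have hNN : ∀ y, N (N y) = 0 := by
    intro y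
    rw [hN (N y), hN y, polar_sub_right, polar_sub_right, polar_smul_right, polar_smul_right, polar_smul_right,
      polar_smul_right, hs1, hss, hsp, hs2]
    simp
  have hN0 : ∃ y, N y ≠ 0 := by
    obtain ⟨y, hy⟩ := hQ.exists_polar_eq hs0 1
    refine ⟨y, fun h => ?_⟩
    rw [hN, hy, one_smul, ← algebraMap_smul L (polar Q (κ • s) y) s, ← sub_smul] at h
    exact hκ.notMem _ (sub_eq_zero.1 ((smul_eq_zero.1 h).resolve_right hs0))
  -- `x`
  let x : V ≃ₗ[F] V := siegel Q s (κ • s) hsQ0 (hs1 κ)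
  have hx : ∀ y, x y = y + N y := by
    intro y
    rw [hN]
    show siegel Q s (κ • s) hsQ0 (hs1 κ) y = _
    rw [siegel_apply, hsQ κ]
    module
  -- `g`
  have hG : Good Q := good_of_finite hQ (by omega)
  set g : V ≃ₗ[F] V := resS F L V gL with hg
  have hgE : g ∈ E Q := by
    rw [← hG.commutator_eq_E]
    have h5 : (O R).map (resS F L V) ≤ O Q := by
      rintro _ ⟨T, hT, rfl⟩ v
      rw [resS_apply, ← hR.form, hT v, hR.form]
    have h6 : (⁅O R, O R⁆).map (resS F L V) ≤ ⁅O Q, O Q⁆ := by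
      rw [Subgroup.map_commutator]
      exact Subgroup.commutator_mono h5 h5
    exact h6 ⟨gL, hgL, rfl⟩
  have hgl : ∀ (k : L) y, g (k • y) = k • g y := fun k y => map_smul gL k y
  have hgs' : g s = lam • s := hgs
  have hgO : g ∈ O Q := E_le_O hgE
  have hgN : ∀ y, g (N y) = lam • N y := by
    intro y
    rw [hN, map_sub, map_smul g (polar Q s y) (κ • s), map_smul g (polar Q (κ • s) y) s, hgl, hgs', smul_sub,
      ← smul_comm (polar Q s y) lam (κ • s), ← smul_comm (polar Q (κ • s) y) lam s,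
      smul_smul κ lam, smul_smul lam κ, mul_comm κ lam]
  have hNg : ∀ y, N (g y) = N (lam⁻¹ • y) := by
    intro y
    have h5 : ∀ k : L, polar Q (k • s) (g y) = polar Q (k • s) (lam⁻¹ • y) := by
      intro k
      have h6 : k • s = g ((k * lam⁻¹) • s) := by
        rw [hgl, hgs', smul_smul, mul_assoc, inv_mul_cancel₀ hlam0, mul_one]
      conv_lhs => rw [h6]
      rw [polar_map hgO, ← hsa, smul_smul, mul_comm]
    have h7 := h5 1
    rw [one_smul] at h7
    rw [hN, hN, h7, h5]
  refine ⟨N, x, g, σ, c, siegel_mem_E _ _, hgE, hx, hNN, hN0, hσ, hall, hσσ, hNa, hgl, fun y => ?_, hc1, hc0⟩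
  have hσl : σ lam ≠ 0 := by
    intro h
    apply hlam0
    rw [← hσσ lam, h, map_zero]
  rw [hgN, hNg, hNa, ← algebraMap_smul L c, ← hc, smul_smul, map_inv₀, mul_assoc, mul_inv_cancel₀ hσl, mul_one]

theorem semi_zero {φ : V → V} {τ₁ τ₂ : L ≃ₐ[F] L} (h : τ₁ ≠ τ₂) (h1 : ∀ (k : L) v, φ (k • v) = τ₁ k • φ v)
    (h2 : ∀ (k : L) v, φ (k • v) = τ₂ k • φ v) (v : V) : φ v = 0 := by
  by_contra hv
  apply h
  apply AlgEquiv.ext
  intro k
  have h3 : (τ₁ k - τ₂ k) • φ v = 0 := by rw [sub_smul, ← h1, ← h2, sub_self]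
  exact sub_eq_zero.1 ((smul_eq_zero.1 h3).resolve_right hv)

/-- `Â ∩ Â^x` centralises `N` -/
theorem comm_N {N : V →ₗ[F] V} {x a b : V ≃ₗ[F] V} {σ τ τ' : L ≃ₐ[F] L} (hx : ∀ y, x y = y + N y)
    (hNN : ∀ y, N (N y) = 0) (hN0 : ∃ y, N y ≠ 0) (hσ : σ ≠ 1) (hall : ∀ τ : L ≃ₐ[F] L, τ = 1 ∨ τ = σ)
    (hσσ : ∀ k, σ (σ k) = k) (hNa : ∀ (k : L) y, N (k • y) = σ k • N y) (ha : SL a τ) (hb : SL b τ')
    (hab : ∀ y, x (b y) = a (x y)) (y : V) : a (N y) = N (a y) := by
  have hσc : ∀ (τ : L ≃ₐ[F] L) k, σ (τ k) = τ (σ k) := by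
    intro τ k
    rcases hall τ with rfl | rfl <;> rfl
  have hττ : ∀ (τ : L ≃ₐ[F] L) k, τ (τ k) = k := by
    intro τ k
    rcases hall τ with rfl | rfl
    · rfl
    · exact hσσ k
  have key : ∀ y, b y + N (b y) = a y + a (N y) := by
    intro y
    have h1 := hab y
    rw [hx, hx, map_add] at h1
    exact h1
  by_cases h : τ = τ'
  · subst h
    have h1 : ∀ y, b y - a y = 0 := by
      intro y
      refine semi_zero (φ := fun y => b y - a y) (τ₁ := τ) (τ₂ := τ * σ) ?_ ?_ ?_ y
      · intro he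
        exact hσ (mul_eq_left.1 he.symm)
      · intro k v
        show b (k • v) - a (k • v) = τ k • (b v - a v)
        rw [hb, ha, smul_sub]
      · intro k v
        have e : ∀ y, b y - a y = a (N y) - N (b y) := by
          intro y
          rw [sub_eq_sub_iff_add_eq_add, key y]
          abel
        show b (k • v) - a (k • v) = τ (σ k) • (b v - a v)
        rw [e, e, hNa, ha, hb, hNa, hσc, smul_sub]
    have h2 : b y = a y := sub_eq_zero.1 (h1 y)
    have h3 := key y
    rw [h2] at h3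
    exact (add_left_cancel h3).symm
  · exfalso
    have hτ' : ∀ k, τ' k = τ (σ k) := by
      intro k
      rcases hall τ with h1 | h1 <;> rcases hall τ' with h2 | h2
      · exact (h (h1.trans h2.symm)).elim
      · rw [h1, h2]; rfl
      · rw [h1, h2, hσσ]; rfl
      · exact (h (h1.trans h2.symm)).elim
    have h1 : ∀ y, a y - N (b y) = 0 := by
      intro y
      refine semi_zero (φ := fun y => a y - N (b y)) (τ₁ := τ) (τ₂ := τ') h ?_ ?_ y
      · intro k v
        show a (k • v) - N (b (k • v)) = τ k • (a v - N (b v))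
        rw [ha, hb, hNa, hτ', hσc, hσσ, smul_sub]
      · intro k v
        have e : ∀ y, a y - N (b y) = b y - a (N y) := by
          intro y
          rw [sub_eq_sub_iff_add_eq_add, ← key y]
        show a (k • v) - N (b (k • v)) = τ' k • (a v - N (b v))
        rw [e, e, hb, hNa, ha, ← hτ', smul_sub]
    obtain ⟨z, hz⟩ := hN0
    apply hz
    obtain ⟨w, rfl⟩ := a.surjective z
    rw [sub_eq_zero.1 (h1 w), hNN]

end geo

section row

open Cfsg.Agent.H284 Cfsg.Agent.H419.EP Cfsg.Agent.H925 Cfsg.Agent.H907 Matrix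
open scoped MatrixGroups

/-- **S3499, Om-C3**, `[K : F] = 2`, `K` self-adjoint, `|F| ≥ 3` -/
theorem omC3R : Cfsg.Agent.H778.EP.OmRow fun F _ _ ι _ _ Qf H => ∃ (K : Subalgebra F (Matrix ι ι F)),
    (3 : ℕ) ≤ Fintype.card F ∧ Geo.IsFieldSubalgebra 2 K ∧
      Geo.IsSelfAdjointFor (QuadraticMap.polar Qf) K ∧ H ≤ Geo.subalgebraNormalizer K := by
  intro Q _ _ hs A Γ h F _ _ ι _ _ Qf m h7 hQ ⟨K, hF, hK, hsa, hle⟩
  have hne : Nonempty ι := Fintype.card_pos_iff.1 (by omega)
  let fK : Field K := (isField_of hK).toField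
  let mK : Module K (ι → F) := modK K
  have hsm : ∀ (k : K) (v : ι → F), k • v = (k : Matrix ι ι F) *ᵥ v := fun _ _ => rfl
  have hst : IsScalarTower F K (ι → F) := ⟨fun c k v => by
    rw [hsm, hsm]
    exact Matrix.smul_mulVec c (k : Matrix ι ι F) v⟩
  have hfr : finrank F K = 2 := hK.finrank_eq
  have hfV : finrank F (ι → F) = Fintype.card ι := Module.finrank_fintype_fun_eq_card F
  obtain ⟨N, x, g, σ, c, hxE, hgE, hx, hNN, hN0, hσ, hall, hσσ, hNa, hgl, hgN, hc1, hc0⟩ :=
    exists_ng (F := F) (L := K) (V := ι → F) (Q := qf hQ) (nondeg_qf hQ) hfr (by rw [hfV]; exact h7)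
      (by rw [Nat.card_eq_fintype_card]; exact hF) (fun k v w => hsa k k.2 v w)
  obtain ⟨x', hx'S, hx'v⟩ := exists_omegaGL hQ (by omega) hxE
  obtain ⟨g', hg'S, hg'v⟩ := exists_omegaGL hQ (by omega) hgE
  have hxx : glEquiv ι F x' = x := LinearEquiv.ext hx'v
  have hgg : glEquiv ι F g' = g := LinearEquiv.ext hg'v
  have hSL : ∀ (g : GL ι F) (hg : g ∈ Geo.subalgebraNormalizer K), SL (L := K) (glEquiv ι F g) (conjK hg) := by
    intro g hg k v
    rw [glEquiv_apply, glEquiv_apply, hsm, hsm, conjK_apply, Matrix.mulVec_mulVec, Matrix.mulVec_mulVec, mul_assoc,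
      Units.inv_mul, mul_one]
  have hx'K : x' ∉ Geo.subalgebraNormalizer K := by
    intro hc
    have h1 := hSL x' hc
    rw [hxx] at h1
    obtain ⟨y, hy⟩ := hN0
    have h2 : conjK hc = (1 : K ≃ₐ[F] K) := by
      apply AlgEquiv.ext
      intro k
      have h3 := h1 k (N y)
      rw [hx, hx, hNa, hNN, smul_zero, add_zero, add_zero, ← sub_eq_zero, ← sub_smul] at h3
      exact (sub_eq_zero.1 ((smul_eq_zero.1 h3).resolve_right hy)).symm
    apply hσ
    apply AlgEquiv.ext
    intro k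
    have h3 := h1 k y
    rw [h2] at h3
    change x (k • y) = k • x y at h3
    rw [hx, hx, hNa, smul_add, add_right_inj, ← sub_eq_zero, ← sub_smul] at h3
    exact sub_eq_zero.1 ((smul_eq_zero.1 h3).resolve_right hy)
  have hhat : m.hat A = Geo.subalgebraNormalizer K ⊓ Geo.omegaGL Qf :=
    Cfsg.Agent.H458.EP.hat_eq m h.max hle fun hcon => hx'K (hcon hx'S)
  have hx'A : x' ∉ m.hat A := fun hcon => hx'K (hle hcon)
  -- `g' ∈ Â`
  have hg'K : g' ∈ Geo.subalgebraNormalizer K := by
    have h1 : ∀ k ∈ K, (g' : Matrix ι ι F) * k = k * (g' : Matrix ι ι F) := by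
      intro k hk
      apply Matrix.ext_of_mulVec_single
      intro i
      rw [← Matrix.mulVec_mulVec, ← Matrix.mulVec_mulVec, hg'v, hg'v]
      exact hgl ⟨k, hk⟩ (Pi.single i 1)
    intro k
    constructor
    · intro hk
      rw [h1 k hk, mul_assoc, Units.mul_inv, mul_one]
      exact hk
    · intro hk
      have h2 := h1 _ hk
      have h3 : (g' : Matrix ι ι F) * ((g' : Matrix ι ι F) * k * ((g'⁻¹ : GL ι F) : Matrix ι ι F)) =
          (g' : Matrix ι ι F) * k := by
        rw [h2, mul_assoc, Units.inv_mul, mul_one]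
      have h4 : (g' : Matrix ι ι F) * k * ((g'⁻¹ : GL ι F) : Matrix ι ι F) = k := by
        have h5 := congrArg (fun z => ((g'⁻¹ : GL ι F) : Matrix ι ι F) * z) h3
        simp only [← mul_assoc, Units.inv_mul, one_mul] at h5
        exact h5
      rwa [h4] at hk
  have hg'A : g' ∈ m.hat A := by
    rw [hhat]
    exact ⟨hg'K, hg'S⟩
  -- elements of `M0` commute with `N`
  have hM0 : ∀ k ∈ m.hat A, k ∈ cj x' (m.hat A) → ∀ y, glEquiv ι F k (N y) = N (glEquiv ι F k y) := by
    intro k hk hk' y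
    rw [mem_cj] at hk'
    have h4 := hSL _ (hle hk')
    refine comm_N hx hNN hN0 hσ hall hσσ hNa (hSL k (hle hk)) h4 ?_ y
    intro z
    rw [map_mul, map_mul, map_inv, hxx]
    exact x.apply_symm_apply _
  have hginv : ∀ z, g⁻¹ (N z) = c⁻¹ • N (g⁻¹ z) := by
    intro z
    apply g.injective
    have h1 : g (g⁻¹ (N z)) = N z := g.apply_symm_apply _
    have h2 : g (g⁻¹ z) = z := g.apply_symm_apply _
    rw [h1, map_smul, hgN, h2, smul_smul, inv_mul_cancel₀ hc0, one_smul]
  have hkill := Cfsg.Agent.H571.EP.kill_self m h hx'S hx'A hg'A (by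
    intro k hk
    obtain ⟨hk1, hk2⟩ := Subgroup.mem_inf.1 hk
    have hcomm : ∀ z, glEquiv ι F (g' * k * g'⁻¹) (N z) = N (glEquiv ι F (g' * k * g'⁻¹) z) := by
      intro z
      rw [map_mul, map_mul, map_inv, hgg]
      show g (glEquiv ι F k (g⁻¹ (N z))) = N (g (glEquiv ι F k (g⁻¹ z)))
      rw [hginv, map_smul, hM0 k hk1 hk2, map_smul, hgN, smul_smul, inv_mul_cancel₀ hc0, one_smul]
    rw [mem_cj]
    have h1 : x'⁻¹ * (g' * k * g'⁻¹) * x' = g' * k * g'⁻¹ := by
      rw [mul_assoc, inv_mul_eq_iff_eq_mul]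
      apply (glEquiv ι F).injective
      rw [map_mul (glEquiv ι F) (g' * k * g'⁻¹) x', map_mul (glEquiv ι F) x', hxx]
      apply LinearEquiv.ext
      intro z
      show glEquiv ι F (g' * k * g'⁻¹) (x z) = x (glEquiv ι F (g' * k * g'⁻¹) z)
      rw [hx, hx, map_add, hcomm]
    rw [h1]
    exact mul_mem (mul_mem hg'A hk1) (inv_mem hg'A))
  have hfin := hM0 g' hg'A hkill
  rw [hgg] at hfin
  obtain ⟨z, hz⟩ := hN0
  obtain ⟨w, rfl⟩ := g.surjective z
  apply hz
  have h1 := hfin w
  rw [hgN] at h1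
  have h2 : (c - 1) • N (g w) = 0 := by rw [sub_smul, one_smul, h1, sub_self]
  exact (smul_eq_zero.1 h2).resolve_left (sub_ne_zero.2 hc1)

end row

end Cfsg.Agent.H893.EP
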