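import Cfsg.Agent.H893.EP.GeoL
import Cfsg.Agent.H457.RC.KForm

/-!
# S3499, row Om-C3, degree two, self-adjoint: isometries over `L` (helper893)

`comm_sq`, `comm_all`: elements of the commutator group of `O(R)`, `R` a quadratic form over `L`, multiplying a singular
vector by a given scalar.
-/

set_option autoImplicit false
set_option linter.unusedSectionVars false

namespace Cfsg.Agent.H893.EP

open QuadraticMap Module
open Cfsg.Agent.LieClassical.OrthCore Cfsg.Agent.LieClassical.OrthTrans Cfsg.Agent.LieClassical.OrthFinite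
open scoped commutatorElement

section ovL

variable {L V : Type*} [Field L] [AddCommGroup V] [Module L V] {R : QuadraticForm L V}

theorem comm_sq {s s' : V} (h : Hyp R s s') {μ : L} (hμ : μ ≠ 0) : ∃ g ∈ ⁅O R, O R⁆, g s = (μ * μ) • s := by
  have hs : polar R s s = 0 := h.polar_left
  have hs' : polar R s' s' = 0 := h.polar_right
  have hss' := h.pair
  have hs's := h.pair'
  have e3 : R (s + s') ≠ 0 := by
    rw [Q_add, h.left, h.right, h.pair, zero_add, zero_add]
    exact one_ne_zero
  have e4' : R (s + μ • s') = μ := by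
    rw [Q_add, QuadraticMap.map_smul, h.left, h.right, polar_smul_right, h.pair]
    simp
  have e4 : R (s + μ • s') ≠ 0 := by rw [e4']; exact hμ
  have ew' : R (s' - s) = -1 := by
    rw [sub_eq_add_neg, Q_add, QuadraticMap.map_neg, h.left, h.right, polar_neg_right, hs's]
    simp
  have ew : R (s' - s) ≠ 0 := by rw [ew']; exact neg_ne_zero.2 one_ne_zero
  have e3' : R (s + s') = 1 := by rw [Q_add, h.left, h.right, h.pair, zero_add, zero_add]
  set h0 : V ≃ₗ[L] V := refl R (s + s') e3 * refl R (s + μ • s') e4 with hh0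
  set w : V ≃ₗ[L] V := refl R (s' - s) ew with hw
  have hO : h0 ∈ O R := (O R).mul_mem (refl_mem_O e3) (refl_mem_O e4)
  have wO : w ∈ O R := refl_mem_O ew
  have ws' : w s' = s := refl_sub_apply (by rw [h.left, h.right]) ew
  have ws : w s = s' := by
    have h1 : w * w = 1 := refl_mul_self ew
    have h2 := DFunLike.congr_fun h1 s'
    change w (w s') = s' at h2
    rwa [ws'] at h2
  have f1 : h0 s = μ • s := by
    show refl R (s + s') e3 (refl R (s + μ • s') e4 s) = _
    have g1 : refl R (s + μ • s') e4 s = -(μ • s') := by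
      rw [refl_apply e4, e4', polar_add_left, polar_smul_left, hs, hs's, smul_eq_mul, mul_one, zero_add,
        inv_mul_cancel₀ hμ]
      module
    rw [g1, refl_apply e3, e3', polar_neg_right, polar_smul_right, polar_add_left, hss', hs']
    simp only [inv_one, smul_eq_mul]
    module
  have f2 : h0 s' = μ⁻¹ • s' := by
    show refl R (s + s') e3 (refl R (s + μ • s') e4 s') = _
    have g1 : refl R (s + μ • s') e4 s' = -(μ⁻¹ • s) := by
      rw [refl_apply e4, e4', polar_add_left, polar_smul_left, hs', hss', smul_zero, add_zero, mul_one, smul_add,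
        smul_smul, inv_mul_cancel₀ hμ]
      module
    rw [g1, refl_apply e3, e3', polar_neg_right, polar_smul_right, polar_add_left, hs, hs's]
    simp only [inv_one, smul_eq_mul]
    module
  refine ⟨⁅h0, w⁆, Subgroup.commutator_mem_commutator hO wO, ?_⟩
  have h0i : h0⁻¹ s' = μ • s' := by
    apply h0.injective
    have h1 : h0 (h0⁻¹ s') = s' := h0.apply_symm_apply s'
    rw [h1, map_smul, f2, smul_smul, mul_inv_cancel₀ hμ, one_smul]
  have wi : w⁻¹ s = s' := by
    apply w.injective
    have h1 : w (w⁻¹ s) = s := w.apply_symm_apply s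
    rw [h1, ws']
  rw [commutatorElement_def]
  show h0 (w (h0⁻¹ (w⁻¹ s))) = _
  rw [wi, h0i, map_smul, ws', map_smul, f1, smul_smul]

/-- two orthogonal nonsingular vectors represent everything -/
theorem exists_val [Finite L] (h2 : (2 : L) ≠ 0) {e e' : V} (he : R e ≠ 0) (he' : R e' ≠ 0) (hee : polar R e e' = 0)
    (c : L) : ∃ a b : L, R (a • e + b • e') = c := by
  classical
  have hft : Fintype L := Fintype.ofFinite L
  have hodd : Fintype.card L % 2 = 1 := by
    rcases Nat.mod_two_eq_zero_or_one (Fintype.card L) with h | h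
    · exfalso
      apply h2
      have h3 : ringChar L = 2 := by
        by_contra hne
        have := FiniteField.odd_card_of_char_ne_two (F := L) hne
        omega
      have : CharP L 2 := ringChar.of_eq h3
      exact CharTwo.two_eq_zero
    · exact h
  obtain ⟨a, b, hab⟩ := FiniteField.exists_root_sum_quadratic
    (f := Polynomial.C (R e) * Polynomial.X ^ 2 - Polynomial.C c) (g := Polynomial.C (R e') * Polynomial.X ^ 2)
    (by
      rw [Polynomial.degree_sub_eq_left_of_degree_lt]
      · exact Polynomial.degree_C_mul_X_pow 2 he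
      · rw [Polynomial.degree_C_mul_X_pow 2 he]
        exact lt_of_le_of_lt Polynomial.degree_C_le (by decide))
    (Polynomial.degree_C_mul_X_pow 2 he') hodd
  refine ⟨a, b, ?_⟩
  rw [Q_add, QuadraticMap.map_smul, QuadraticMap.map_smul, polar_smul_left, polar_smul_right, hee]
  simp only [Polynomial.eval_sub, Polynomial.eval_mul, Polynomial.eval_C, Polynomial.eval_pow, Polynomial.eval_X] at hab
  simp only [smul_eq_mul]
  linear_combination hab

/-- orthogonal nonsingular vectors in `⟨s, s'⟩^⊥` -/
theorem exists_two (hR : Nondeg R) (h4 : 4 ≤ finrank L V) (h2 : (2 : L) ≠ 0) {s s' : V} (h : Hyp R s s') :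
    ∃ e e' : V, R e ≠ 0 ∧ R e' ≠ 0 ∧ polar R e e' = 0 ∧ polar R s e = 0 ∧ polar R s' e = 0 ∧ polar R s e' = 0 ∧
      polar R s' e' = 0 := by
  obtain ⟨a, c, h1, h2', h3, h4', h5⟩ := exists_perp2 hR (by omega) h
  obtain ⟨e, hse, hs'e, he⟩ : ∃ e, polar R s e = 0 ∧ polar R s' e = 0 ∧ R e ≠ 0 := by
    rcases exists_nonsing h5 with h | h | h
    · exact ⟨a, h1, h2', h⟩
    · exact ⟨c, h3, h4', h⟩
    · exact ⟨a + c, by rw [polar_add_right, h1, h3, add_zero], by rw [polar_add_right, h2', h4', add_zero], h⟩
  have hes : polar R e s = 0 := polar_zero_of_comm hse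
  have hes' : polar R e s' = 0 := polar_zero_of_comm hs'e
  have hee : polar R e e ≠ 0 := by
    rw [polar_self']
    exact mul_ne_zero h2 he
  obtain ⟨z, hz0, hz⟩ := exists_perp_ne (Q := R) ![s, s', e] (by omega)
  have z1 : polar R s z = 0 := hz 0
  have z2 : polar R s' z = 0 := hz 1
  have z3 : polar R e z = 0 := hz 2
  obtain ⟨w, hw⟩ := hR.exists_polar_eq hz0 1
  set z' := w - polar R s' w • s - polar R s w • s' - (polar R e w / polar R e e) • e with hz'
  have y1 : polar R s z' = 0 := by
    rw [hz', polar_sub_right, polar_sub_right, polar_sub_right, polar_smul_right, polar_smul_right, polar_smul_right,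
      h.polar_left, h.pair, hse]
    simp
  have y2 : polar R s' z' = 0 := by
    rw [hz', polar_sub_right, polar_sub_right, polar_sub_right, polar_smul_right, polar_smul_right, polar_smul_right,
      h.polar_right, h.pair', hs'e]
    simp
  have y3 : polar R e z' = 0 := by
    rw [hz', polar_sub_right, polar_sub_right, polar_sub_right, polar_smul_right, polar_smul_right, polar_smul_right,
      hes, hes', smul_eq_mul, smul_eq_mul, smul_eq_mul, div_mul_cancel₀ _ hee]
    ring
  have y4 : polar R z z' = 1 := by
    rw [hz', polar_sub_right, polar_sub_right, polar_sub_right, polar_smul_right, polar_smul_right, polar_smul_right,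
      hw, polar_zero_of_comm z1, polar_zero_of_comm z2, polar_zero_of_comm z3]
    simp
  rcases exists_nonsing y4 with h6 | h6 | h6
  · exact ⟨e, z, he, h6, z3, hse, hs'e, z1, z2⟩
  · exact ⟨e, z', he, h6, y3, hse, hs'e, y1, y2⟩
  · exact ⟨e, z + z', he, h6, by rw [polar_add_right, z3, y3, add_zero], hse, hs'e,
      by rw [polar_add_right, z1, y1, add_zero], by rw [polar_add_right, z2, y2, add_zero]⟩

theorem refl_pair_comm {x y : V} (hx : R x ≠ 0) (hy : R y ≠ 0) (h : R x = R y) (hv : R (y - x) ≠ 0) :
    refl R x hx * refl R y hy ∈ ⁅O R, O R⁆ := by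
  set T := refl R (y - x) hv with hT
  have h1 : T y = x := refl_sub_apply h hv
  have h2 : T x = y := by
    have e1 : T * T = 1 := refl_mul_self hv
    have e2 := DFunLike.congr_fun e1 y
    change T (T y) = y at e2
    rwa [h1] at e2
  have h3 : T * refl R x hx * T⁻¹ = refl R y hy := by
    have hq : R (T x) ≠ 0 := by rw [h2]; exact hy
    rw [refl_conj (refl_mem_O hv) hx hq]
    congr 1
  have h4 : refl R x hx * refl R y hy = ⁅refl R x hx, T⁆ := by
    have h5 : (refl R x hx)⁻¹ = refl R x hx := refl_inv hx
    rw [commutatorElement_def, h5, ← h3]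
    group
  rw [h4]
  exact Subgroup.commutator_mem_commutator (refl_mem_O hx) (refl_mem_O hv)

theorem comm_all [Finite L] (hR : Nondeg R) (h4 : 4 ≤ finrank L V) (h2 : (2 : L) ≠ 0) {s s' : V} (h : Hyp R s s')
    {ζ : L} (hζ : ζ ≠ 0) : ∃ g ∈ ⁅O R, O R⁆, g s = ζ • s := by
  obtain ⟨e, e', he, he', hee, h5, h6, h7, h8⟩ := exists_two hR h4 h2 h
  obtain ⟨a1, b1, hv1⟩ := exists_val h2 he he' hee 1
  obtain ⟨a2, b2, hv2⟩ := exists_val h2 he he' hee ζ
  set e1 := a1 • e + b1 • e' with he1
  set e2 := a2 • e + b2 • e' with he2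
  have hs := h.polar_left
  have hs' := h.polar_right
  have hss' := h.pair
  have hs's := h.pair'
  have p1 : polar R e1 s = 0 := by
    rw [he1, polar_add_left, polar_smul_left, polar_smul_left, polar_zero_of_comm h5, polar_zero_of_comm h7]
    simp
  have p1' : polar R e1 s' = 0 := by
    rw [he1, polar_add_left, polar_smul_left, polar_smul_left, polar_zero_of_comm h6, polar_zero_of_comm h8]
    simp
  have p2 : polar R e2 s = 0 := by
    rw [he2, polar_add_left, polar_smul_left, polar_smul_left, polar_zero_of_comm h5, polar_zero_of_comm h7]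
    simp
  have p2' : polar R e2 s' = 0 := by
    rw [he2, polar_add_left, polar_smul_left, polar_smul_left, polar_zero_of_comm h6, polar_zero_of_comm h8]
    simp
  have q1 : R e1 ≠ 0 := by rw [hv1]; exact one_ne_zero
  have q2 : R e2 ≠ 0 := by rw [hv2]; exact hζ
  have v3 : R (s + s') = 1 := by rw [Q_add, h.left, h.right, h.pair, zero_add, zero_add]
  have v4 : R (s + ζ • s') = ζ := by
    rw [Q_add, QuadraticMap.map_smul, h.left, h.right, polar_smul_right, h.pair]
    simp
  have q3 : R (s + s') ≠ 0 := by rw [v3]; exact one_ne_zero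
  have q4 : R (s + ζ • s') ≠ 0 := by rw [v4]; exact hζ
  have c1 : refl R e1 q1 * refl R (s + s') q3 ∈ ⁅O R, O R⁆ := by
    refine refl_pair_comm q1 q3 (by rw [hv1, v3]) ?_
    rw [sub_eq_add_neg, Q_add, QuadraticMap.map_neg, polar_neg_right, polar_add_left, polar_zero_of_comm p1,
      polar_zero_of_comm p1', hv1, v3, add_zero, neg_zero, add_zero, one_add_one_eq_two]
    exact h2
  have c2 : refl R e2 q2 * refl R (s + ζ • s') q4 ∈ ⁅O R, O R⁆ := by
    refine refl_pair_comm q2 q4 (by rw [hv2, v4]) ?_
    rw [sub_eq_add_neg, Q_add, QuadraticMap.map_neg, polar_neg_right, polar_add_left, polar_smul_left,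
      polar_zero_of_comm p2, polar_zero_of_comm p2', hv2, v4, smul_zero, add_zero, neg_zero, add_zero, ← two_mul]
    exact mul_ne_zero h2 hζ
  refine ⟨_, Subgroup.mul_mem _ c1 c2, ?_⟩
  show refl R e1 q1 (refl R (s + s') q3 (refl R e2 q2 (refl R (s + ζ • s') q4 s))) = ζ • s
  have g4 : refl R (s + ζ • s') q4 s = -(ζ • s') := by
    rw [refl_apply q4, v4, polar_add_left, polar_smul_left, hs, hs's, smul_eq_mul, mul_one, zero_add,
      inv_mul_cancel₀ hζ]
    module
  have g2 : refl R e2 q2 (-(ζ • s')) = -(ζ • s') := by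
    rw [refl_apply q2, polar_neg_right, polar_smul_right, p2']
    simp
  have g3 : refl R (s + s') q3 (-(ζ • s')) = ζ • s := by
    rw [refl_apply q3, v3, polar_neg_right, polar_smul_right, polar_add_left, hss', hs']
    simp only [inv_one, smul_eq_mul]
    module
  rw [g4, g2, g3, refl_apply q1, polar_smul_right, p1]
  simp

end ovL

end Cfsg.Agent.H893.EP
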